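import Mathlib
import Cfsg.Agent.H92.SylIn
import Cfsg.Agent.H59.Fit
import Cfsg.Agent.H19.Nilp
import Cfsg.Agent.H21.Basic
import Cfsg.Agent.H3.PGroup
import Cfsg.Agent.H8.Shintani

/-! Casolo's theorem on subnormalizers of `p`-subgroups, by two sign-reversing pairings on normal chains. -/

set_option autoImplicit false

namespace Cfsg.Agent.H8

open Subgroup Cfsg Cfsg.Agent.H92 Finset
open scoped Pointwise

variable {G : Type*} [Group G]

/-- chains of mutually normalizing `p`-subgroups containing `H` -/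
def CasCh (p : ℕ) (H : Subgroup G) (σ : Finset (Subgroup G)) : Prop :=
  (∀ Q ∈ σ, H ≤ Q ∧ IsPGroup p Q) ∧
    ∀ Q ∈ σ, ∀ R ∈ σ, (Q ≤ R ∨ R ≤ Q) ∧ R ≤ normalizer (Q : Set G)

/-- the stabilizer of a chain -/
def casM (σ : Finset (Subgroup G)) : Subgroup G := ⨅ Q ∈ σ, normalizer (Q : Set G)

theorem mem_casM {σ : Finset (Subgroup G)} {g : G} : g ∈ casM σ ↔ ∀ Q ∈ σ, g ∈ normalizer (Q : Set G) := by
  simp [casM, Subgroup.mem_iInf]

theorem le_casM {σ : Finset (Subgroup G)} {K : Subgroup G} :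
    K ≤ casM σ ↔ ∀ Q ∈ σ, K ≤ normalizer (Q : Set G) := by
  simp [casM]

theorem CasCh.mono {p : ℕ} {H : Subgroup G} {σ τ : Finset (Subgroup G)} (h : CasCh p H σ) (hτ : τ ⊆ σ) :
    CasCh p H τ :=
  ⟨fun Q hQ => h.1 Q (hτ hQ), fun Q hQ R hR => h.2 Q (hτ hQ) R (hτ hR)⟩

theorem mem_normalizer_sInf {S : Set (Subgroup G)} {g : G} (h : ∀ Q ∈ S, g ∈ normalizer (Q : Set G)) :
    g ∈ normalizer ((sInf S : Subgroup G) : Set G) := by
  rw [mem_normalizer_iff]
  intro x
  simp only [Subgroup.mem_sInf]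
  exact forall₂_congr fun Q hQ => mem_normalizer_iff.1 (h Q hQ) x

theorem sup_commutator_lt [Finite G] {p : ℕ} [Fact p.Prime] {A T : Subgroup G} (hT : IsPGroup p T)
    (h : A < T) : A ⊔ ⁅T, T⁆ < T := by
  have h1 : ⁅T, T⁆ ≤ T := H21.commutator_le_of_le_normalizer le_normalizer
  refine lt_of_le_of_ne (sup_le h.le h1) fun he => h.ne ?_
  have h2 : A.subgroupOf T ⊔ frattini T = ⊤ := by
    rw [eq_top_iff]
    refine le_trans ?_ (sup_le_sup_left (H3.commutator_le_frattini hT) _)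
    rw [← map_le_map_iff_of_injective T.subtype_injective, Subgroup.map_sup, map_subtype_commutator,
      subgroupOf_map_subtype, inf_of_le_left h.le, he, ← MonoidHom.range_eq_map, subtype_range]
  exact le_antisymm h.le (subgroupOf_eq_top.1 (frattini_nongenerating h2))

/-- the candidates for the bottom of a chain -/
def casA (p : ℕ) (H : Subgroup G) (g : G) (σ : Finset (Subgroup G)) : Set (Subgroup G) :=
  {Q | H ≤ Q ∧ IsPGroup p Q ∧ g ∈ normalizer (Q : Set G) ∧ ∀ R ∈ σ, R ≤ normalizer (Q : Set G)}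

theorem casA_mem {p : ℕ} {H : Subgroup G} {g : G} {σ : Finset (Subgroup G)} (h : CasCh p H σ)
    (hg : g ∈ casM σ) {Q : Subgroup G} (hQ : Q ∈ σ) : Q ∈ casA p H g σ :=
  ⟨(h.1 Q hQ).1, (h.1 Q hQ).2, mem_casM.1 hg Q hQ, fun R hR => (h.2 Q hQ R hR).2⟩

theorem sInf_casA_mem {p : ℕ} {H : Subgroup G} {g : G} {σ : Finset (Subgroup G)} (h : CasCh p H σ)
    (hg : g ∈ casM σ) (hX : ∃ X, H ≤ X ∧ IsPGroup p X ∧ g ∈ normalizer (X : Set G)) :
    sInf (casA p H g σ) ∈ casA p H g σ := by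
  have hne : ∃ Q, Q ∈ casA p H g σ := by
    rcases σ.eq_empty_or_nonempty with rfl | ⟨Q, hQ⟩
    · obtain ⟨X, h1, h2, h3⟩ := hX
      exact ⟨X, h1, h2, h3, fun R hR => absurd hR (notMem_empty R)⟩
    · exact ⟨Q, casA_mem h hg hQ⟩
  obtain ⟨Q, hQ⟩ := hne
  exact ⟨le_sInf fun R hR => hR.1, hQ.2.1.to_le (sInf_le hQ), mem_normalizer_sInf fun R hR => hR.2.2.1,
    fun R hR x hx => mem_normalizer_sInf fun Q' hQ' => hQ'.2.2.2 R hR hx⟩

open Classical in
theorem cas_sum_fix [Fintype (Subgroup G)] [Finite G] {p : ℕ} [Fact p.Prime] {H : Subgroup G} {g : G}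
    (hX : ∃ X, H ≤ X ∧ IsPGroup p X ∧ g ∈ normalizer (X : Set G)) :
    ∑ σ ∈ univ.filter (fun σ => CasCh p H σ ∧ g ∈ casM σ), (-1 : ℤ) ^ σ.card = 0 := by
  let b : Finset (Subgroup G) → Subgroup G := fun σ => sInf (casA p H g σ)
  let t : Finset (Subgroup G) → Finset (Subgroup G) := fun σ =>
    if b σ ∈ σ then σ.erase (b σ) else insert (b σ) σ
  have hb : ∀ σ, CasCh p H σ → g ∈ casM σ → ∀ Q ∈ σ, b σ ≤ Q := fun σ h hg Q hQ =>
    sInf_le (casA_mem h hg hQ)
  have hmem : ∀ σ, CasCh p H σ → g ∈ casM σ → CasCh p H (t σ) ∧ g ∈ casM (t σ) := by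
    intro σ h hg
    simp only [t]
    split_ifs with hm
    · exact ⟨h.mono (erase_subset _ _), mem_casM.2 fun Q hQ => mem_casM.1 hg Q (erase_subset _ _ hQ)⟩
    · have h1 := sInf_casA_mem h hg hX
      refine ⟨⟨fun Q hQ => ?_, fun Q hQ R hR => ?_⟩, mem_casM.2 fun Q hQ => ?_⟩
      · rcases mem_insert.1 hQ with rfl | hQ
        · exact ⟨h1.1, h1.2.1⟩
        · exact h.1 Q hQ
      · rcases mem_insert.1 hQ with rfl | hQ <;> rcases mem_insert.1 hR with rfl | hR
        · exact ⟨Or.inl le_rfl, le_normalizer⟩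
        · exact ⟨Or.inl (hb σ h hg R hR), h1.2.2.2 R hR⟩
        · exact ⟨Or.inr (hb σ h hg Q hQ), (hb σ h hg Q hQ).trans le_normalizer⟩
        · exact h.2 Q hQ R hR
      · rcases mem_insert.1 hQ with rfl | hQ
        · exact h1.2.2.1
        · exact mem_casM.1 hg Q hQ
  have hbt : ∀ σ, CasCh p H σ → g ∈ casM σ → b (t σ) = b σ := by
    intro σ h hg
    have h1 := sInf_casA_mem h hg hX
    have h2 := hmem σ h hg
    simp only [t] at h2 ⊢
    split_ifs at h2 ⊢ with hm
    · rcases (σ.erase (b σ)).eq_empty_or_nonempty with he | ⟨R, hR⟩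
      · have h3 := sInf_casA_mem h2.1 h2.2 hX
        have h4 : b (σ.erase (b σ)) ≤ b σ :=
          sInf_le ⟨h1.1, h1.2.1, h1.2.2.1, fun R hR => h1.2.2.2 R (erase_subset _ _ hR)⟩
        by_contra hne
        have h5 := sup_commutator_lt h1.2.1 (lt_of_le_of_ne h4 hne)
        refine h5.not_ge (sInf_le ⟨h3.1.trans le_sup_left, h1.2.1.to_le h5.le, ?_, fun R hR => ?_⟩)
        · have e1 : zpowers g ≤ normalizer ((b σ : Subgroup G) : Set G) := (zpowers_le).2 h1.2.2.1
          exact (zpowers_le).1 (H21.le_normalizer_sup ((zpowers_le).2 h3.2.2.1)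
            (H21.le_normalizer_commutator e1 e1))
        · have e2 : R = b σ := by
            by_contra e3
            exact notMem_empty R (he ▸ mem_erase.2 ⟨e3, hR⟩)
          rw [e2]
          exact le_normalizer_iff_commutator_le_left.2 ((commutator_mono h5.le le_rfl).trans le_sup_right)
      · have : casA p H g (σ.erase (b σ)) = casA p H g σ := by
          ext Q
          refine and_congr_right fun _ => and_congr_right fun _ => and_congr_right fun _ =>
            ⟨fun h3 R' hR' => ?_, fun h3 R' hR' => h3 R' (erase_subset _ _ hR')⟩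
          by_cases e : R' = b σ
          · rw [e]; exact (hb σ h hg R (erase_subset _ _ hR)).trans (h3 R hR)
          · exact h3 R' (mem_erase.2 ⟨e, hR'⟩)
        simp only [b] at this ⊢
        rw [this]
    · refine le_antisymm (hb _ h2.1 h2.2 _ (mem_insert_self _ _)) (sInf_le_sInf fun Q hQ => ?_)
      exact ⟨hQ.1, hQ.2.1, hQ.2.2.1, fun R hR => hQ.2.2.2 R (mem_insert_of_mem hR)⟩
  refine sum_involution (fun σ _ => t σ) (fun σ _ => ?_) (fun σ _ _ => ?_) (fun σ hσ => ?_)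
    (fun σ hσ => ?_)
  · simp only [t]
    split_ifs with hm
    · rw [← card_erase_add_one hm, pow_succ]; ring
    · rw [card_insert_of_notMem hm, pow_succ]; ring
  · simp only [t]
    split_ifs with hm
    · exact fun e => notMem_erase _ _ (e.ge hm)
    · exact fun e => hm (e.le (mem_insert_self _ _))
  · rw [mem_filter] at hσ ⊢
    exact ⟨mem_univ _, hmem σ hσ.2.1 hσ.2.2⟩
  · rw [mem_filter] at hσ
    have h1 := hbt σ hσ.2.1 hσ.2.2
    change (if b (t σ) ∈ t σ then (t σ).erase (b (t σ)) else insert (b (t σ)) (t σ)) = σ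
    rw [h1]
    simp only [t]
    by_cases hm : b σ ∈ σ
    · rw [if_pos hm, if_neg (notMem_erase _ _), insert_erase hm]
    · rw [if_neg hm, if_pos (mem_insert_self _ _), erase_insert hm]

open Classical in
theorem sum_card_normalizer_sylIn [Fintype (Subgroup G)] [Finite G] {p : ℕ} [Fact p.Prime] (M : Subgroup G) :
    ∑ T ∈ univ.filter (fun T => SylIn p T M), Nat.card ↥(M ⊓ normalizer (T : Set G)) = Nat.card M := by
  have := Fintype.ofFinite (Sylow p M)
  have h1 : ∑ T ∈ univ.filter (fun T => SylIn p T M), Nat.card ↥(M ⊓ normalizer (T : Set G))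
      = ∑ T : Sylow p M, Nat.card (normalizer ((T : Subgroup M) : Set M)) := by
    symm
    refine sum_bij (fun T _ => (T : Subgroup M).map M.subtype) (fun T _ => ?_) (fun T _ T' _ h => ?_)
      (fun T hT => ?_) (fun T _ => ?_)
    · exact mem_filter.2 ⟨mem_univ _, sylIn_of_sylow T⟩
    · exact Sylow.ext (map_injective M.subtype_injective h)
    · have h := (mem_filter.1 hT).2
      exact ⟨h.toSylow, mem_univ _, by rw [h.coe_toSylow, subgroupOf_map_subtype, inf_of_le_left h.le]⟩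
    · have h := sylIn_of_sylow T
      have e : (T : Subgroup M) = ((T : Subgroup M).map M.subtype).subgroupOf M :=
        (comap_map_eq_self_of_injective M.subtype_injective _).symm
      conv_lhs => rw [e]
      rw [← subgroupOf_normalizer_eq h.le, ← card_map_of_injective M.subtype_injective,
        subgroupOf_map_subtype, inf_comm]
  rw [h1]
  have h2 : ∀ T : Sylow p M, Nat.card (Sylow p M) * Nat.card (normalizer ((T : Subgroup M) : Set M))
      = Nat.card M := fun T => by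
    rw [Sylow.card_eq_index_normalizer T, mul_comm]; exact card_mul_index _
  refine Nat.eq_of_mul_eq_mul_left (Nat.card_pos (α := Sylow p M)) ?_
  rw [mul_sum, sum_congr rfl fun T _ => h2 T, sum_const, card_univ, smul_eq_mul,
    Nat.card_eq_fintype_card (α := Sylow p M)]

theorem sylIn_of_inf_normalizer [Finite G] {p : ℕ} [Fact p.Prime] {T M : Subgroup G}
    (h : SylIn p T (M ⊓ normalizer (T : Set G))) : SylIn p T M := by
  refine ⟨h.le.trans inf_le_left, h.pgroup, fun Q hQ hQp hTQ => ?_⟩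
  by_contra hne
  obtain ⟨t, ht, htT, htN⟩ := H19.exists_mem_normalizer_of_lt_nilpotent hQp.isNilpotent
    (lt_of_le_of_ne hTQ (Ne.symm hne))
  have := h.max (Q ⊓ normalizer (T : Set G)) (inf_le_inf_right _ hQ) (hQp.to_le inf_le_left)
    (le_inf hTQ le_normalizer)
  exact htT (this.le ⟨ht, htN⟩)

theorem casM_insert [DecidableEq (Subgroup G)] (σ : Finset (Subgroup G)) (T : Subgroup G) :
    casM (insert T σ) = casM σ ⊓ normalizer (T : Set G) := by
  ext g
  simp only [mem_casM, mem_insert, forall_eq_or_imp, Subgroup.mem_inf]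
  exact and_comm

theorem CasCh.le_casM {p : ℕ} {H : Subgroup G} {σ : Finset (Subgroup G)} (h : CasCh p H σ) {Q : Subgroup G}
    (hQ : Q ∈ σ) : Q ≤ casM σ := H8.le_casM.2 fun R hR => (h.2 R hR Q hQ).2

theorem CasCh.le_syl [Finite G] {p : ℕ} [Fact p.Prime] {H : Subgroup G} {σ : Finset (Subgroup G)}
    (h : CasCh p H σ) {Q T : Subgroup G} (hQ : Q ∈ σ) (hT : SylIn p T (casM σ)) : Q ≤ T :=
  hT.le_of_normal (h.le_casM hQ) (h.1 Q hQ).2 fun _ hg => mem_casM.1 hg Q hQ

open Classical in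
theorem cas_sum_sat [Fintype (Subgroup G)] [Finite G] {p : ℕ} [Fact p.Prime] (H : Subgroup G) :
    ∑ σ ∈ univ.filter (fun σ => CasCh p H σ ∧ ∃ T ∈ σ, SylIn p T (casM σ)),
        (-1 : ℤ) ^ σ.card * Nat.card (casM σ)
      = - ∑ σ ∈ univ.filter (fun σ => CasCh p H σ ∧ ¬ ∃ T ∈ σ, SylIn p T (casM σ)), (-1 : ℤ) ^ σ.card *
        ∑ T ∈ univ.filter (fun T => SylIn p T (casM σ) ∧ H ≤ T),
          (Nat.card ↥(casM σ ⊓ normalizer (T : Set G)) : ℤ) := by
  simp only [mul_sum, ← sum_neg_distrib]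
  rw [sum_sigma']
  symm
  refine sum_bij (fun x _ => insert x.2 x.1) (fun x hx => ?_) (fun x hx y hy h => ?_)
    (fun σ hσ => ?_) (fun x hx => ?_)
  · obtain ⟨σ, T⟩ := x
    simp only [mem_sigma, mem_filter, mem_univ, true_and] at hx ⊢
    obtain ⟨⟨h, -⟩, hT, hH⟩ := hx
    refine ⟨⟨fun Q hQ => ?_, fun Q hQ R hR => ?_⟩, T, mem_insert_self _ _, ?_⟩
    · rcases mem_insert.1 hQ with rfl | hQ
      · exact ⟨hH, hT.pgroup⟩
      · exact h.1 Q hQ
    · rcases mem_insert.1 hQ with e | hQ' <;> rcases mem_insert.1 hR with e' | hR'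
      · rw [e, e']; exact ⟨Or.inl le_rfl, le_normalizer⟩
      · rw [e]; exact ⟨Or.inr (h.le_syl hR' hT), (h.le_syl hR' hT).trans le_normalizer⟩
      · rw [e']; exact ⟨Or.inl (h.le_syl hQ' hT), le_casM.1 hT.le Q hQ'⟩
      · exact h.2 Q hQ' R hR'
    · rw [casM_insert]
      exact hT.mono (le_inf hT.le le_normalizer) inf_le_left
  · obtain ⟨σ, T⟩ := x
    obtain ⟨σ', T'⟩ := y
    simp only [mem_sigma, mem_filter, mem_univ, true_and] at hx hy h
    obtain ⟨⟨h1, h2⟩, hT, -⟩ := hx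
    obtain ⟨⟨h1', h2'⟩, hT', -⟩ := hy
    have e : T = T' := by
      apply le_antisymm
      · rcases mem_insert.1 (h.le (mem_insert_self T σ)) with e | e
        · exact e.le
        · exact h1'.le_syl e hT'
      · rcases mem_insert.1 (h.ge (mem_insert_self T' σ')) with e | e
        · exact e.le
        · exact h1.le_syl e hT
    subst e
    have e2 : σ = σ' := by
      rw [← erase_insert (s := σ) (a := T) fun hm => h2 ⟨T, hm, hT⟩, h,
        erase_insert fun hm => h2' ⟨T, hm, hT'⟩]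
    subst e2
    rfl
  · simp only [mem_filter, mem_univ, true_and] at hσ
    obtain ⟨h, T, hT, hS⟩ := hσ
    have hS' : SylIn p T (casM (σ.erase T)) := by
      apply sylIn_of_inf_normalizer
      rw [← casM_insert, insert_erase hT]; exact hS
    refine ⟨⟨σ.erase T, T⟩, ?_, insert_erase hT⟩
    simp only [mem_sigma, mem_filter, mem_univ, true_and]
    refine ⟨⟨h.mono (erase_subset _ _), ?_⟩, hS', (h.1 T hT).1⟩
    rintro ⟨T', hT', hS''⟩
    exact (mem_erase.1 hT').1 (hS''.max T hS'.le hS'.pgroup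
      ((h.mono (erase_subset _ _)).le_syl hT' hS')).symm
  · obtain ⟨σ, T⟩ := x
    simp only [mem_sigma, mem_filter, mem_univ, true_and] at hx ⊢
    rw [card_insert_of_notMem fun hm => hx.1.2 ⟨T, hm, hx.2.1⟩, casM_insert, pow_succ]
    ring

theorem casM_empty : casM (∅ : Finset (Subgroup G)) = ⊤ := by simp [casM]

theorem casCh_empty (p : ℕ) (H : Subgroup G) : CasCh p H ∅ :=
  ⟨fun Q hQ => absurd hQ (notMem_empty Q), fun Q hQ => absurd hQ (notMem_empty Q)⟩

/-- Casolo's count. -/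
theorem casolo_count [Finite G] {p : ℕ} [Fact p.Prime] (H : Subgroup G) (P : Sylow p G) :
    Nat.card {g : G // ∃ X, H ≤ X ∧ IsPGroup p X ∧ g ∈ normalizer (X : Set G)}
      = Nat.card {Q : Sylow p G // H ≤ (Q : Subgroup G)} * Nat.card (normalizer ((P : Subgroup G) : Set G)) := by
  classical
  have := Fintype.ofFinite G
  have := Fintype.ofFinite (Subgroup G)
  have := Fintype.ofFinite (Sylow p G)
  have h1 : ∑ σ ∈ univ.filter (CasCh p H), (-1 : ℤ) ^ σ.card * Nat.card (casM σ)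
      = #{g : G | ¬ ∃ X, H ≤ X ∧ IsPGroup p X ∧ g ∈ normalizer (X : Set G)} := by
    have e : ∀ σ : Finset (Subgroup G), (-1 : ℤ) ^ σ.card * Nat.card (casM σ)
        = ∑ g : G, if g ∈ casM σ then (-1 : ℤ) ^ σ.card else 0 := by
      intro σ
      rw [← sum_filter, sum_const, Nat.card_eq_fintype_card, Fintype.card_subtype, nsmul_eq_mul, mul_comm]
    rw [sum_congr rfl fun σ _ => e σ, sum_comm, card_filter, Nat.cast_sum]
    refine sum_congr rfl fun g _ => ?_
    rw [← sum_filter, filter_filter]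
    by_cases hX : ∃ X, H ≤ X ∧ IsPGroup p X ∧ g ∈ normalizer (X : Set G)
    · rw [if_neg (not_not.2 hX), Nat.cast_zero]
      convert cas_sum_fix hX
    · rw [if_pos hX]
      have : univ.filter (fun σ => CasCh p H σ ∧ g ∈ casM σ) = {∅} := by
        ext σ
        simp only [mem_filter, mem_univ, true_and, mem_singleton]
        constructor
        · rintro ⟨h, hg⟩
          by_contra hne
          obtain ⟨Q, hQ⟩ := nonempty_iff_ne_empty.2 hne
          exact hX ⟨Q, (h.1 Q hQ).1, (h.1 Q hQ).2, mem_casM.1 hg Q hQ⟩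
        · rintro rfl
          exact ⟨casCh_empty p H, casM_empty.ge (mem_top g)⟩
      rw [this]; simp
  have h2 := cas_sum_sat (p := p) H
  rw [← sum_filter_add_sum_filter_not _ (fun σ => ∃ T ∈ σ, SylIn p T (casM σ)), filter_filter,
    filter_filter] at h1
  have hm : (∅ : Finset (Subgroup G)) ∈
      univ.filter (fun σ => CasCh p H σ ∧ ¬ ∃ T ∈ σ, SylIn p T (casM σ)) :=
    mem_filter.2 ⟨mem_univ _, casCh_empty p H, by simp⟩
  have h3 : ∑ T ∈ univ.filter (fun T => SylIn p T (⊤ : Subgroup G) ∧ H ≤ T),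
      (Nat.card ↥(⊤ ⊓ normalizer (T : Set G)) : ℤ)
      = Nat.card {Q : Sylow p G // H ≤ (Q : Subgroup G)} * Nat.card (normalizer ((P : Subgroup G) : Set G)) := by
    rw [Nat.card_eq_fintype_card (α := {Q : Sylow p G // H ≤ (Q : Subgroup G)}), Fintype.card_subtype,
      ← nsmul_eq_mul, ← sum_const]
    symm
    refine sum_bij (fun Q _ => (Q : Subgroup G)) (fun Q hQ => ?_) (fun Q _ Q' _ h => Sylow.ext h)
      (fun T hT => ?_) (fun Q _ => ?_)
    · exact mem_filter.2 ⟨mem_univ _, sylIn_top Q, (mem_filter.1 hQ).2⟩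
    · obtain ⟨Q, rfl⟩ := sylIn_top_iff.1 (mem_filter.1 hT).2.1
      exact ⟨Q, mem_filter.2 ⟨mem_univ _, (mem_filter.1 hT).2.2⟩, rfl⟩
    · rw [top_inf_eq]
      congr 1
      refine Nat.eq_of_mul_eq_mul_right (Nat.card_pos (α := Sylow p G)) ?_
      conv_lhs => rw [Sylow.card_eq_index_normalizer P]
      conv_rhs => rw [Sylow.card_eq_index_normalizer Q]
      exact (card_mul_index _).trans (card_mul_index _).symm
  rw [← add_sum_erase _ _ hm, casM_empty, h3] at h2
  rw [← add_sum_erase _ _ hm, casM_empty, card_top] at h1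
  have h4 : ∑ σ ∈ (univ.filter (fun σ => CasCh p H σ ∧ ¬ ∃ T ∈ σ, SylIn p T (casM σ))).erase ∅,
      (-1 : ℤ) ^ σ.card * ∑ T ∈ univ.filter (fun T => SylIn p T (casM σ) ∧ H ≤ T),
          (Nat.card ↥(casM σ ⊓ normalizer (T : Set G)) : ℤ)
      = ∑ σ ∈ (univ.filter (fun σ => CasCh p H σ ∧ ¬ ∃ T ∈ σ, SylIn p T (casM σ))).erase ∅,
        (-1 : ℤ) ^ σ.card * Nat.card (casM σ) := by
    refine sum_congr rfl fun σ hσ => ?_
    obtain ⟨hne, hσ⟩ := mem_erase.1 hσ
    obtain ⟨Q, hQ⟩ := nonempty_iff_ne_empty.2 hne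
    have h := (mem_filter.1 hσ).2.1
    rw [← Nat.cast_sum, ← sum_card_normalizer_sylIn (p := p) (casM σ)]
    congr 3
    ext T
    simp only [mem_filter, mem_univ, true_and]
    exact ⟨fun h' => h'.1, fun h' => ⟨h', (h.1 Q hQ).1.trans (h.le_syl hQ h')⟩⟩
  rw [h4] at h2
  have h5 := card_filter_add_card_filter_not (s := (univ : Finset G))
    (fun g => ∃ X, H ≤ X ∧ IsPGroup p X ∧ g ∈ normalizer (X : Set G))
  rw [card_univ, ← Nat.card_eq_fintype_card] at h5
  rw [Nat.card_eq_fintype_card, Fintype.card_subtype]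
  simp only [card_empty, pow_zero, one_mul] at h1 h2
  have h6 : ((#{g : G | ∃ X, H ≤ X ∧ IsPGroup p X ∧ g ∈ normalizer (X : Set G)} : ℕ) : ℤ) =
      ((Nat.card {Q : Sylow p G // H ≤ (Q : Subgroup G)} *
        Nat.card (normalizer ((P : Subgroup G) : Set G)) : ℕ) : ℤ) := by
    have h7 := congrArg (Nat.cast : ℕ → ℤ) h5
    push_cast at h7 ⊢
    linarith
  exact_mod_cast h6

theorem subnormal_sup_zpowers_iff [Finite G] {p : ℕ} [Fact p.Prime] {H : Subgroup G} (hH : IsPGroup p H)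
    (g : G) : (H.subgroupOf (H ⊔ zpowers g)).IsSubnormal ↔
      ∃ X, H ≤ X ∧ IsPGroup p X ∧ g ∈ normalizer (X : Set G) := by
  constructor
  · intro h
    exact ⟨_, H44.le_pCoreOf_of_subnormal le_sup_left h hH, H44.pCoreOf_isPGroup _,
      H44.le_normalizer_pCoreOf _ (mem_sup_right (mem_zpowers g))⟩
  · rintro ⟨X, h1, h2, h3⟩
    have h4 : H44.SN (normalizer (X : Set G)) H :=
      (H44.SN.of_le_normalizer le_normalizer le_rfl).trans (H59.sn_of_le_nilpotent h2.isNilpotent h1)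
    exact (h4.mono le_sup_left (sup_le (h1.trans le_normalizer) ((zpowers_le).2 h3))).isSubnormal_subgroupOf

theorem card_conj_le_sylow [Finite G] {p : ℕ} [Fact p.Prime] (H : Subgroup G) (P : Sylow p G) :
    Nat.card {g : G // ∀ h ∈ H, g * h * g⁻¹ ∈ P}
      = Nat.card {Q : Sylow p G // H ≤ (Q : Subgroup G)} * Nat.card (normalizer ((P : Subgroup G) : Set G)) := by
  have hm : ∀ (g h : G), h ∈ ((g⁻¹ • P : Sylow p G) : Subgroup G) ↔ g * h * g⁻¹ ∈ P := fun g h => by
    rw [Sylow.coe_subgroup_smul, mem_pointwise_smul_iff_inv_smul_mem, ← map_inv, inv_inv]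
    rfl
  refine card_eq_of_fibers (fun g => ⟨g.1⁻¹ • P, fun h hh => (hm _ _).2 (g.2 h hh)⟩) ?_
  rintro ⟨Q, hQ⟩
  obtain ⟨c, rfl⟩ := MulAction.exists_smul_eq G P Q
  refine ⟨⟨fun s => ⟨s.1.1 * c, ?_⟩, fun n => ⟨⟨n * c⁻¹, fun h hh => (hm _ _).1 ?_⟩, Subtype.ext ?_⟩,
    fun s => ?_, fun n => ?_⟩⟩
  · have h1 : s.1.1⁻¹ • P = c • P := congrArg Subtype.val s.2
    change _ ∈ normalizer (P : Set G)
    rw [← Sylow.smul_eq_iff_mem_normalizer, mul_smul]
    exact smul_eq_iff_eq_inv_smul _ |>.2 h1.symm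
  · rw [mul_inv_rev, inv_inv, mul_smul, Sylow.smul_eq_iff_mem_normalizer.2 (inv_mem n.2)]
    exact hQ hh
  · change ((n : G) * c⁻¹)⁻¹ • P = c • P
    rw [mul_inv_rev, inv_inv, mul_smul, Sylow.smul_eq_iff_mem_normalizer.2 (inv_mem n.2)]
  · exact Subtype.ext (Subtype.ext (by simp))
  · exact Subtype.ext (by simp)

/-- Casolo: the subnormalizer of a `p`-subgroup has as many elements as there are elements
conjugating it into a Sylow `p`-subgroup. -/
theorem card_subnormalizer [Finite G] {p : ℕ} [Fact p.Prime] {H : Subgroup G} (hH : IsPGroup p H)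
    (P : Sylow p G) : Nat.card {g : G // (H.subgroupOf (H ⊔ zpowers g)).IsSubnormal}
      = Nat.card {g : G // ∀ h ∈ H, g * h * g⁻¹ ∈ P} := by
  rw [card_conj_le_sylow, ← casolo_count H P]
  exact Nat.card_congr (Equiv.subtypeEquivRight (subnormal_sup_zpowers_iff hH))

end Cfsg.Agent.H8
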