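import Mathlib
import Cfsg.Agent.H8.Casolo
import Cfsg.Agent.H8.NavRizo
import Cfsg.Agent.H83.ClassCount
import Cfsg.Agent.H3.PComplement

/-! Counting elements conjugating a `p`-subgroup into `P A` along a normal series. -/

set_option autoImplicit false

namespace Cfsg.Agent.H8

open Subgroup Cfsg Cfsg.Agent.H92 Finset
open scoped Pointwise

variable {G : Type*} [Group G]

/-- number of elements conjugating `X` into `K` -/
noncomputable def casF (X K : Subgroup G) : ℕ := Nat.card {g : G // ∀ h ∈ X, g * h * g⁻¹ ∈ K}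

/-- number of elements of `B` centralized by `X` modulo `A` -/
noncomputable def casC (X A B : Subgroup G) : ℕ :=
  Nat.card {u : G // u ∈ B ∧ ∀ h ∈ X, h * u * h⁻¹ * u⁻¹ ∈ A}

theorem card_map_mk' (A B : Subgroup G) [A.Normal] :
    Nat.card (B.map (QuotientGroup.mk' A)) = A.relIndex B := by
  rw [← relIndex_ker, QuotientGroup.ker_mk']

theorem sylow_sup_eq_of_relIndex_pow [Finite G] {p : ℕ} [Fact p.Prime] (P : Sylow p G) {A B : Subgroup G}
    [A.Normal] [B.Normal] (hAB : A ≤ B) {m : ℕ} (h : A.relIndex B = p ^ m) :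
    (P : Subgroup G) ⊔ A = (P : Subgroup G) ⊔ B := by
  refine le_antisymm (sup_le_sup_left hAB _) (sup_le le_sup_left ?_)
  have h1 : IsPGroup p (B.map (QuotientGroup.mk' A)) := IsPGroup.of_card (by rw [card_map_mk', h])
  have := Subgroup.Normal.map (inferInstance : B.Normal) _ (QuotientGroup.mk'_surjective A)
  have h2 := h1.le_sylow_of_normal (P.mapSurjective (QuotientGroup.mk'_surjective A))
  rw [Sylow.coe_mapSurjective, map_le_iff_le_comap, comap_map_eq, QuotientGroup.ker_mk'] at h2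
  exact h2

theorem sup_inf_eq_of_coprime [Finite G] {p : ℕ} [Fact p.Prime] {P A B : Subgroup G} (hP : IsPGroup p P)
    [A.Normal] (hAB : A ≤ B) (h : (A.relIndex B).Coprime p) : (P ⊔ A) ⊓ B = A := by
  refine le_antisymm (fun x hx => ?_) (le_inf le_sup_right hAB)
  have h1 := H3.inf_eq_bot_of_isPGroup_of_coprime (hP.map (QuotientGroup.mk' A))
    (N := B.map (QuotientGroup.mk' A)) (by rw [card_map_mk']; exact h)
  have h2 : x ∈ (P.map (QuotientGroup.mk' A)).comap (QuotientGroup.mk' A) := by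
    rw [comap_map_eq, QuotientGroup.ker_mk']; exact hx.1
  exact (QuotientGroup.eq_one_iff x).1 (mem_bot.1 (h1.le ⟨h2, mem_map_of_mem _ hx.2⟩))

theorem card_sup_mul_of_coprime [Finite G] {p : ℕ} [Fact p.Prime] {P A B : Subgroup G} (hP : IsPGroup p P)
    [A.Normal] [B.Normal] (hAB : A ≤ B) (h : (A.relIndex B).Coprime p) :
    Nat.card ↥(P ⊔ B) * Nat.card A = Nat.card ↥(P ⊔ A) * Nat.card B := by
  have h1 := H21.card_sup_mul_card_inf' (X := P ⊔ A) (Y := B) (by rw [normalizer_eq_top]; exact le_top)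
  rwa [sup_inf_eq_of_coprime hP hAB h, sup_assoc, sup_eq_right.2 hAB] at h1

theorem casF_mul_of_coprime [Finite G] {p : ℕ} [Fact p.Prime] (P : Sylow p G) {X A B : Subgroup G}
    (hX : IsPGroup p X) [hA : A.Normal] [hB : B.Normal] (hAB : A ≤ B) (h : (A.relIndex B).Coprime p) :
    casF X ((P : Subgroup G) ⊔ A) * Nat.card B = casF X ((P : Subgroup G) ⊔ B) * casC X A B := by
  have hi := sup_inf_eq_of_coprime P.isPGroup' hAB h
  rw [casF, ← Nat.card_prod]
  refine card_eq_of_fibers (fun t => ⟨t.2 * t.1, fun x hx => ?_⟩) ?_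
  · have h1 : t.1.1 * x * t.1.1⁻¹ ∈ (P : Subgroup G) ⊔ B := sup_le_sup_left hAB _ (t.1.2 x hx)
    have h2 : (t.2 : G) ∈ (P : Subgroup G) ⊔ B := mem_sup_right t.2.2
    have := mul_mem (mul_mem h2 h1) (inv_mem h2)
    simpa [mul_assoc] using this
  rintro ⟨g, hg⟩
  obtain ⟨k, hk, hk'⟩ := ((sylIn_top P).mono le_sup_left (le_top : (P : Subgroup G) ⊔ B ≤ ⊤)).exists_conj
    (Q := X.map (MulAut.conj g).toMonoidHom) (by rintro _ ⟨x, hx, rfl⟩; exact hg x hx) (hX.map _)
  rw [← SetLike.mem_coe, mul_normal] at hk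
  obtain ⟨π, hπ, u, hu, rfl⟩ := hk
  have h1 : ∀ x ∈ X, (u * g) * x * (u * g)⁻¹ ∈ (P : Subgroup G) := fun x hx => by
    have h2 := hk' _ (mem_map_of_mem _ hx)
    have := mul_mem (mul_mem (inv_mem hπ) h2) hπ
    simpa [mul_assoc] using this
  set c := u * g with hc
  have h3 : ∀ w ∈ B, (∀ x ∈ X, (c * w) * x * (c * w)⁻¹ ∈ (P : Subgroup G) ⊔ A) ↔
      ∀ x ∈ X, x * w * x⁻¹ * w⁻¹ ∈ A := by
    intro w hw
    refine forall₂_congr fun x hx => ?_
    have e : (c * w) * x * (c * w)⁻¹ = c * (x * w * x⁻¹ * w⁻¹)⁻¹ * c⁻¹ * (c * x * c⁻¹) := by group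
    rw [e, Subgroup.mul_mem_cancel_right _ (mem_sup_left (h1 x hx))]
    constructor
    · intro h4
      have h5 : c * (x * w * x⁻¹ * w⁻¹)⁻¹ * c⁻¹ ∈ B :=
        hB.conj_mem _ (inv_mem (mul_mem (hB.conj_mem _ hw x) (inv_mem hw))) c
      have := hA.conj_mem _ (inv_mem (hi.le ⟨h4, h5⟩)) c⁻¹
      simpa [mul_assoc] using this
    · exact fun h4 => mem_sup_right (hA.conj_mem _ (inv_mem h4) c)
  have h4 : ∀ s : {s : {g : G // ∀ h ∈ X, g * h * g⁻¹ ∈ (P : Subgroup G) ⊔ A} × B // (s.2 : G) * s.1 = g},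
      c⁻¹ * s.1.1 ∈ B := fun s => by
    have : c⁻¹ * s.1.1 = g⁻¹ * (u⁻¹ * (s.1.2 : G)⁻¹) * g⁻¹⁻¹ := by
      have e : (s.1.1 : G) = (s.1.2 : G)⁻¹ * g := eq_inv_mul_of_mul_eq s.2
      rw [hc, e]; group
    rw [this]
    exact hB.conj_mem _ (mul_mem (inv_mem hu) (inv_mem s.1.2.2)) _
  refine ⟨⟨fun s => ⟨c⁻¹ * s.1.1, h4 ⟨s.1, congrArg Subtype.val s.2⟩,
      (h3 _ (h4 ⟨s.1, congrArg Subtype.val s.2⟩)).1 (by simpa using s.1.1.2)⟩,
    fun w => ⟨⟨⟨c * w, (h3 _ w.2.1).2 w.2.2⟩, ⟨g * (c * w)⁻¹, ?_⟩⟩, Subtype.ext (inv_mul_cancel_right _ _)⟩,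
    fun s => ?_, fun w => Subtype.ext (by simp)⟩⟩
  · have : g * (c * w)⁻¹ = g * (w : G)⁻¹ * g⁻¹ * u⁻¹ := by rw [hc]; group
    rw [this]
    exact mul_mem (hB.conj_mem _ (inv_mem w.2.1) _) (inv_mem hu)
  · have h5 : (s.1.2 : G) * s.1.1 = g := congrArg Subtype.val s.2
    refine Subtype.ext (Prod.ext (Subtype.ext (by simp)) (Subtype.ext ?_))
    simp [← h5]

theorem casC_eq (X A B : Subgroup G) [A.Normal] (hAB : A ≤ B) : casC X A B = Nat.card A *
    Nat.card ↥(B.map (QuotientGroup.mk' A) ⊓ centralizer (X.map (QuotientGroup.mk' A) : Set (G ⧸ A))) := by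
  rw [← H83.card_comap_mk', casC]
  refine Nat.card_congr (Equiv.subtypeEquivRight fun u => ?_)
  rw [comap_inf, comap_map_eq, QuotientGroup.ker_mk', sup_eq_left.2 hAB, Subgroup.mem_inf, mem_comap,
    mem_centralizer_iff]
  refine and_congr_right fun _ => ⟨?_, fun h x hx => ?_⟩
  · rintro h _ ⟨x, hx, rfl⟩
    have := (QuotientGroup.eq_one_iff _).2 (h x hx)
    simp only [QuotientGroup.mk_mul, QuotientGroup.mk_inv, mul_inv_eq_iff_eq_mul, one_mul] at this
    exact this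
  · rw [← QuotientGroup.eq_one_iff]
    simp only [QuotientGroup.mk_mul, QuotientGroup.mk_inv, mul_inv_eq_iff_eq_mul, one_mul]
    exact h _ (mem_map_of_mem _ hx)

theorem casF_top (X : Subgroup G) : casF X ⊤ = Nat.card G :=
  Nat.card_congr (Equiv.subtypeUnivEquiv fun _ _ _ => mem_top _)

/-- The inequality of Navarro-Rizo type on a `p'`-section. -/
theorem prod_casC_le [Finite G] {p : ℕ} [Fact p.Prime] {P A B : Subgroup G} [Fintype P] (hP : IsPGroup p P)
    [A.Normal] [hB : B.Normal] (hAB : A ≤ B) (h : (A.relIndex B).Coprime p) :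
    ∏ x : P, casC (zpowers (x : G)) A B ^ p
      ≤ Nat.card B ^ Nat.card P * casC P A B ^ ((p - 1) * Nat.card P) := by
  have hp : p.Prime := Fact.out
  have := Subgroup.Normal.map hB _ (QuotientGroup.mk'_surjective A)
  have h1 := navarro_rizo hP ((QuotientGroup.mk' A).comp P.subtype) (B.map (QuotientGroup.mk' A))
    (by rw [normalizer_eq_top]; exact le_top) (by rw [card_map_mk']; exact h)
  rw [MonoidHom.range_comp, subtype_range] at h1
  simp only [casC_eq _ A B hAB, MonoidHom.map_zpowers, mul_pow, prod_mul_distrib]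
  simp only [MonoidHom.comp_apply, coe_subtype] at h1
  rw [h1, prod_const, card_univ, ← Nat.card_eq_fintype_card, ← H21.card_mul_relIndex_of_le hAB,
    ← card_map_mk', mul_pow]
  have h2 : ∏ x : P, Nat.card ↥(B.map (QuotientGroup.mk' A) ⊓
      centralizer (zpowers (QuotientGroup.mk' A ((x ^ p : P) : G)) : Set (G ⧸ A)))
      ≤ Nat.card (B.map (QuotientGroup.mk' A)) ^ Nat.card P := by
    refine (prod_le_pow_card _ _ _ fun x _ => card_le_of_le inf_le_left).trans_eq ?_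
    rw [card_univ, ← Nat.card_eq_fintype_card]
  obtain ⟨s, rfl⟩ : ∃ s, p = s + 1 := ⟨p - 1, (Nat.succ_pred_eq_of_pos hp.pos).symm⟩
  rw [Nat.add_sub_cancel]
  refine (Nat.mul_le_mul_left _ (Nat.mul_le_mul_right _ h2)).trans_eq ?_
  ring

end Cfsg.Agent.H8
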