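import Cfsg.Agent.H8.TwoSizes

set_option autoImplicit false

/-! Groups with three class sizes in which two proper centralizers are properly nested. -/

namespace Cfsg.Agent.H8

open Subgroup H83

local notation "𝒞[" x "]" => Subgroup.centralizer {x}

/-- Three class sizes. -/
structure TS (G : Type*) [Group G] (n₁ n₂ : ℕ) : Prop where
  h12 : n₂ < n₁
  h2 : 1 < n₂
  h : ∀ x : G, cs(x) = 1 ∨ cs(x) = n₂ ∨ cs(x) = n₁

/-- Three class sizes, two properly nested proper centralizers. -/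
structure NF (G : Type*) [Group G] (n₁ n₂ : ℕ) : Prop extends TS G n₁ n₂ where
  nf : ∃ x y : G, y ∉ center G ∧ 𝒞[x] < 𝒞[y]

variable {G : Type*} [Group G] [Finite G] {n₁ n₂ : ℕ}

omit [Finite G] in
theorem TS.cases (T : TS G n₁ n₂) {x : G} (hx : x ∉ center G) : cs(x) = n₂ ∨ cs(x) = n₁ :=
  (T.h x).resolve_left fun e => hx (cs_eq_one_iff.1 e)

omit [Finite G] in
theorem TS.nc_of_big (T : TS G n₁ n₂) {x : G} (hx : cs(x) = n₂) : x ∉ center G :=
  fun e => T.h2.ne' (hx ▸ cs_eq_one_iff.2 e)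

omit [Finite G] in
theorem TS.nc_of_small (T : TS G n₁ n₂) {x : G} (hx : cs(x) = n₁) : x ∉ center G :=
  fun e => (T.h2.trans T.h12).ne' (hx ▸ cs_eq_one_iff.2 e)

theorem TS.eq_of_big (T : TS G n₁ n₂) {x y : G} (hx : cs(x) = n₂) (hy : y ∉ center G)
    (h : 𝒞[x] ≤ 𝒞[y]) : 𝒞[x] = 𝒞[y] := by
  refine eq_of_le_of_index_eq h ?_
  rcases T.cases hy with e | e
  · rw [hx, e]
  · have := index_dvd_of_le h
    rw [hx, e] at this
    exact absurd (Nat.le_of_dvd (zero_lt_one.trans T.h2) this) T.h12.not_ge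

theorem TS.eq_of_small (T : TS G n₁ n₂) {x y : G} (hy : cs(y) = n₁) (h : 𝒞[x] ≤ 𝒞[y]) :
    𝒞[x] = 𝒞[y] := by
  refine eq_of_le_of_index_eq h ?_
  have := index_dvd_of_le h
  have h1 := T.h2
  have h2 := T.h12
  rcases T.h x with e | e | e
  · rw [hy, e] at this
    have := Nat.le_of_dvd one_pos this
    omega
  · rw [hy, e] at this
    have := Nat.le_of_dvd (by omega) this
    omega
  · rw [hy, e]

theorem TS.of_lt (T : TS G n₁ n₂) {x y : G} (hy : y ∉ center G) (h : 𝒞[x] < 𝒞[y]) :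
    cs(x) = n₁ ∧ cs(y) = n₂ := by
  have hx : x ∉ center G := fun e => h.not_ge fun g _ => mem_cent.2 (mem_center_iff.1 e g)
  exact ⟨(T.cases hx).resolve_left fun e => h.ne (T.eq_of_big e hy h.le),
    (T.cases hy).resolve_right fun e => h.ne (T.eq_of_small e h.le)⟩

theorem TS.absorb (T : TS G n₁ n₂) {a b : G} (ha : a ∉ center G) (hc : Commute a b)
    (hcop : (orderOf a).Coprime (orderOf b)) (hab : cs(a * b) = n₂) : 𝒞[a] ≤ 𝒞[b] := by
  have h1 := cent_mul_of_coprime hc hcop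
  rw [← T.eq_of_big hab ha (h1 ▸ inf_le_left), h1]
  exact inf_le_right

theorem TS.small_of_not_le (T : TS G n₁ n₂) {a b : G} (ha : a ∉ center G) (hc : Commute a b)
    (hcop : (orderOf a).Coprime (orderOf b)) (h : ¬ 𝒞[a] ≤ 𝒞[b]) : cs(a * b) = n₁ :=
  (T.cases (mul_not_mem_center hc hcop ha)).resolve_left fun e => h (T.absorb ha hc hcop e)

theorem NF.mul (T : NF G n₁ n₂) : n₁ / n₂ * n₂ = n₁ := by
  obtain ⟨x, y, hy, h⟩ := T.nf
  obtain ⟨h1, h2⟩ := T.of_lt hy h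
  exact Nat.div_mul_cancel (h1 ▸ h2 ▸ index_dvd_of_le h.le)

theorem NF.one_lt (T : NF G n₁ n₂) : 1 < n₁ / n₂ := by
  have h1 := T.mul
  have h2 := T.h12
  by_contra hc
  have : n₁ / n₂ * n₂ ≤ 1 * n₂ := Nat.mul_le_mul_right _ (not_lt.1 hc)
  omega

theorem NF.relIndex_eq (T : NF G n₁ n₂) {K H : Subgroup G} (hK : K.index = n₁) (hH : H.index = n₂)
    (h : K ≤ H) : K.relIndex H = n₁ / n₂ := by
  have := relIndex_mul_index h
  rw [hK, hH] at this
  exact Nat.eq_of_mul_eq_mul_right (zero_lt_one.trans T.h2) (this.trans T.mul.symm)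

theorem NF.dvd_index (T : NF G n₁ n₂) : n₁ ∣ (center G).index := by
  obtain ⟨x, y, hy, h⟩ := T.nf
  exact (T.of_lt hy h).1 ▸ index_dvd_of_le (center_le_centralizer _)

theorem NF.dvd_n₁ (T : NF G n₁ n₂) {s : ℕ} (hs : s.Prime) (hd : s ∣ (center G).index) : s ∣ n₁ := by
  have := Fact.mk hs
  by_contra hc
  obtain ⟨P⟩ : Nonempty (Sylow s G) := inferInstance
  have h1 : centralizer ((P : Subgroup G) : Set G) = ⊤ := by
    refine eq_top_of_forall_conj_mem fun x => exists_conj_mem_cent_sylow P ?_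
    rcases T.h x with e | e | e <;> rw [e]
    · exact hs.not_dvd_one
    · exact fun h => hc (T.mul ▸ h.mul_left _)
    · exact hc
  exact P.not_dvd_index (hd.trans (index_dvd_of_le (centralizer_eq_top_iff_subset.1 h1)))

theorem NF.exists_PE_big (T : NF G n₁ n₂) {s : ℕ} (hs : s.Prime) (hd : s ∣ (center G).index)
    {y : G} (hy : cs(y) = n₂) : ∃ v ∈ 𝒞[y], PE s v ∧ v ∉ center G := by
  obtain ⟨v, -, hv, hvz⟩ := exists_PE_of_dvd_relIndex (Y := center G) (X := ⊤) hs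
    (by rwa [relIndex_top_right])
  refine exists_PE_of_dvd_relIndex hs ?_
  have h1 := dvd_relIndex_center hs (self_mem_cent v) hv hvz
  rcases T.cases hvz with e | e
  · rwa [relIndex_eq_of_index_eq (center_le_centralizer _) (center_le_centralizer {v})
      (hy.trans e.symm)]
  · have h2 := relIndex_mul_index (center_le_centralizer ({v} : Set G))
    rw [← relIndex_mul_index (center_le_centralizer ({y} : Set G)), e, hy, ← T.mul,
      ← mul_assoc] at h2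
    rw [← Nat.eq_of_mul_eq_mul_right (zero_lt_one.trans T.h2) h2]
    exact h1.mul_right _

theorem NF.exists_nb (T : NF G n₁ n₂) : ∃ (p : ℕ) (y : G), p.Prime ∧ PE p y ∧ cs(y) = n₂ ∧
    ∃ x ∈ 𝒞[y], ¬ 𝒞[y] ≤ 𝒞[x] := by
  obtain ⟨x, y₀, hy₀, h⟩ := T.nf
  obtain ⟨p, hp, y, hy, hpy, hyz⟩ := exists_PE_of_not_mem hy₀
  have h1 := (T.of_lt hy₀ h).2
  have h2 := T.eq_of_big h1 hyz (cent_le_cent_of_mem_zpowers hy)
  exact ⟨p, y, hp, hpy, h2 ▸ h1, x, h2 ▸ h.le (self_mem_cent x), h2 ▸ h.not_ge⟩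

/-- Claim A. -/
theorem NF.exists_PE (T : NF G n₁ n₂)
    (h2 : ∀ a : ℕ, ∃ c : ℕ, c.Prime ∧ c ∣ (center G).index ∧ c ≠ a)
    {s : ℕ} (hs : s.Prime) (hd : s ∣ (center G).index)
    {x : G} (hx : x ∉ center G) : ∃ v ∈ 𝒞[x], PE s v ∧ v ∉ center G := by
  rcases T.cases hx with e | e
  · exact T.exists_PE_big hs hd e
  refine exists_PE_of_dvd_relIndex hs (by_contra fun hc => ?_)
  have hbig : ∀ w u : G, w ∉ center G → u ∈ 𝒞[w] → PE s u → u ∉ center G → cs(w) = n₂ := by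
    intro w u hw hu hsu huz
    refine (T.cases hw).resolve_right fun e' => hc ?_
    rw [relIndex_eq_of_index_eq (center_le_centralizer _) (center_le_centralizer {w})
      (e.trans e'.symm)]
    exact dvd_relIndex_center hs hu hsu huz
  have hR : ∀ a b : G, a ∉ center G → Commute a b → (orderOf a).Coprime (orderOf b) →
      (PE s a ∨ (PE s b ∧ b ∉ center G)) → 𝒞[a] ≤ 𝒞[b] := by
    intro a b ha hab hcop h
    refine T.absorb ha hab hcop ?_
    rcases h with h | h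
    · exact hbig _ a (mul_not_mem_center hab hcop ha)
        (mem_cent.2 ((Commute.refl a).mul_right hab)) h ha
    · exact hbig _ b (mul_not_mem_center hab hcop ha)
        (mem_cent.2 (hab.symm.mul_right (Commute.refl b))) h.1 h.2
  obtain ⟨r, y, hr, hy, hyb, x₀, hx₀, hne⟩ := T.exists_nb
  have hyz := T.nc_of_big hyb
  obtain ⟨u, hu, huz, huH⟩ : ∃ u, PE s u ∧ u ∉ center G ∧ 𝒞[y] = 𝒞[u] := by
    by_cases hrs : r = s
    · exact ⟨y, hrs ▸ hy, hyz, rfl⟩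
    · obtain ⟨u, huy, hu, huz⟩ := T.exists_PE_big hs hd hyb
      exact ⟨u, hu, huz, T.eq_of_big hyb huz (hR y u hyz (mem_cent.1 huy).symm
        (PE.coprime_orderOf hr hs hrs hy hu) (Or.inr ⟨hu, huz⟩))⟩
  obtain ⟨t, ht, htd, hts⟩ := h2 s
  obtain ⟨v, hvy, hv, hvz⟩ := T.exists_PE_big ht htd hyb
  have hvH : 𝒞[y] = 𝒞[v] := T.eq_of_big hyb hvz (huH ▸ hR u v huz
    (mem_cent.1 (huH ▸ hvy : v ∈ 𝒞[u])).symm (PE.coprime_orderOf hs ht hts.symm hu hv) (Or.inl hu))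
  have key : 𝒞[y] ≤ centralizer ((𝒞[y] : Subgroup G) : Set G) := by
    refine le_of_forall_PE fun p hp w hw hpw g hg => mem_cent.1 ?_
    by_cases hwz : w ∈ center G
    · exact mem_cent.2 (mem_center_iff.1 hwz g)
    by_cases hps : p = s
    · exact hR v w hvz (mem_cent.1 (hvH ▸ hw : w ∈ 𝒞[v])).symm
        (PE.coprime_orderOf ht hp (hps ▸ hts) hv hpw) (Or.inr ⟨hps ▸ hpw, hwz⟩) (hvH ▸ hg)
    · exact hR u w huz (mem_cent.1 (huH ▸ hw : w ∈ 𝒞[u])).symm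
        (PE.coprime_orderOf hs hp (Ne.symm hps) hu hpw) (Or.inl hu) (huH ▸ hg)
  exact hne fun g hg => mem_cent.2 (key hx₀ g hg)

omit [Finite G] in
theorem normalizer_le_normalizer_inf_cent (H : Subgroup G) :
    normalizer (H : Set G) ≤ normalizer ((H ⊓ centralizer (H : Set G) : Subgroup G) : Set G) := by
  have key : ∀ g ∈ normalizer (H : Set G), ∀ k ∈ H ⊓ centralizer (H : Set G),
      g * k * g⁻¹ ∈ H ⊓ centralizer (H : Set G) := by
    intro g hg k hk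
    refine ⟨(mem_normalizer_iff.1 hg k).1 hk.1, fun a ha => ?_⟩
    have h1 : g⁻¹ * a * g ∈ H := by
      have := (mem_normalizer_iff.1 (inv_mem hg) a).1 ha
      simpa using this
    have h2 := hk.2 _ h1
    calc a * (g * k * g⁻¹) = g * (g⁻¹ * a * g * k) * g⁻¹ := by group
      _ = g * k * g⁻¹ * a := by rw [h2]; group
  intro g hg
  refine mem_normalizer_iff.2 fun k => ⟨key g hg k, fun h => ?_⟩
  have := key g⁻¹ (inv_mem hg) _ h
  simpa [mul_assoc] using this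

/-- At least three primes divide the index of the centre. -/
def P3 (G : Type*) [Group G] : Prop :=
  ∀ a b : ℕ, ∃ c : ℕ, c.Prime ∧ c ∣ (center G).index ∧ c ≠ a ∧ c ≠ b

theorem NF.exPE (T : NF G n₁ n₂) (h3 : P3 G) {s : ℕ} (hs : s.Prime) (hd : s ∣ (center G).index)
    {x : G} (hx : x ∉ center G) : ∃ v ∈ 𝒞[x], PE s v ∧ v ∉ center G :=
  T.exists_PE (fun a => let ⟨c, h1, h2, h, _⟩ := h3 a a; ⟨c, h1, h2, h⟩) hs hd hx

theorem NF.beta (T : NF G n₁ n₂) (h3 : P3 G) {y : G} (hy : cs(y) = n₂)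
    (hna : ∃ x ∈ 𝒞[y], ¬ 𝒞[y] ≤ 𝒞[x]) {p : ℕ}
    (h : ∀ q : ℕ, q.Prime → q ≠ p → ∀ v ∈ 𝒞[y], PE q v → 𝒞[y] ≤ 𝒞[v]) : False := by
  set H : Subgroup G := 𝒞[y] with hH
  set K := H ⊓ centralizer (H : Set G) with hK
  have hmemK : ∀ v ∈ H, H ≤ 𝒞[v] → v ∈ K := fun v hv hle => ⟨hv, fun g hg => mem_cent.1 (hle hg)⟩
  have hKH : ∀ k ∈ K, k ∉ center G → 𝒞[k] = H := fun k hk hkz =>
    (T.eq_of_big hy hkz fun g hg => mem_cent.2 (hk.2 g hg)).symm
  have hcomm : ∀ a ∈ K, ∀ b ∈ K, Commute a b := fun a ha b hb => hb.2 a ha.1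
  have hCK : centralizer (K : Set G) = H := le_antisymm
    (centralizer_le (Set.singleton_subset_iff.2 (hmemK y (self_mem_cent y) le_rfl)))
    fun g hg k hk => (hk.2 g hg).symm
  obtain ⟨x, hxH, hx⟩ := hna
  obtain ⟨p', hp', x', hx'x, hpx', hx'K⟩ := exists_PE_of_not_mem (H := K) (x := x)
    fun e => hx fun g hg => mem_cent.2 (e.2 g hg)
  have hx'H : x' ∈ H := zpowers_le.2 hxH hx'x
  have hpp : p' = p := by
    by_contra hne
    exact hx'K (hmemK x' hx'H (h p' hp' hne x' hx'H hpx'))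
  subst hpp
  have key : ∀ q : ℕ, q.Prime → q ∣ (center G).index → q ≠ p' →
      (∃ u ∈ K, PE q u ∧ u ∉ center G) ∧
      ∃ g, g ∉ H ∧ PE q g ∧ g ∈ normalizer (K : Set G) := by
    intro q hq hqd hqp
    obtain ⟨u, huH, hu, huz⟩ := T.exPE h3 hq hqd (T.nc_of_big hy)
    have huK := hmemK u huH (h q hq hqp u huH hu)
    refine ⟨⟨u, huK, hu, huz⟩, ?_⟩
    have hc : Commute u x' := (huK.2 x' hx'H).symm
    have hcop := PE.coprime_orderOf hq hp' hqp hu hpx'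
    have h1 := T.small_of_not_le huz hc hcop (by
      rw [hKH u huK huz]; exact fun e => hx'K (hmemK x' hx'H e))
    have h2 := cent_mul_of_coprime hc hcop
    rw [hKH u huK huz] at h2
    have h4 : K ≤ 𝒞[u * x'] := h2 ▸ le_inf inf_le_left fun k hk => mem_cent.2 (hk.2 x' hx'H).symm
    have h5 : (𝒞[u * x'] : Subgroup G).relIndex H = n₁ / n₂ :=
      T.relIndex_eq h1 hy (h2 ▸ inf_le_left)
    have h6 : ¬ q ∣ n₁ / n₂ := fun e => by
      obtain ⟨v, hvH, hv, hvK⟩ := exists_PE_of_dvd_relIndex (Y := K) (X := H) hq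
        (e.trans (h5 ▸ relIndex_dvd_of_le_left H h4))
      exact hvK (hmemK v hvH (h q hq hqp v hvH hv))
    have h7 : q ∣ n₂ := ((Nat.Prime.dvd_mul hq).1
      (by rw [T.mul]; exact T.dvd_n₁ hq hqd)).resolve_left h6
    obtain ⟨g, -, hgH, hg, hgn⟩ := exists_PE_mem_normalizer (le_top : H ≤ ⊤) hq
      (by rw [relIndex_top_right, hy]; exact h7)
      (fun a ha b hb _ h2 => mem_cent.1 (h q hq hqp b hb h2 ha)) ⟨u, huH, hu, huz⟩
      (fun v hv h1 h2 => by rw [top_inf_eq, hKH v (hmemK v hv (h q hq hqp v hv h1)) h2])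
    exact ⟨g, hgH, hg, normalizer_le_normalizer_inf_cent H hgn⟩
  obtain ⟨q, hq, hqd, hqp, -⟩ := h3 p' p'
  obtain ⟨r, hr, hrd, hrp, hrq⟩ := h3 p' q
  obtain ⟨hu, g, hgH, hg, hgn⟩ := key q hq hqd hqp
  obtain ⟨hu', e, heH, he, hen⟩ := key r hr hrd hrp
  have hfix : ∀ e, e ∉ centralizer (K : Set G) → ∀ u ∈ K, Commute e u → u ∈ center G := by
    intro e he u hu hc
    by_contra huz
    exact he (hCK ▸ hKH u hu huz ▸ mem_cent.2 hc)
  obtain ⟨k, hk⟩ := pow_mem_cent_of_few_fixed hcomm le_rfl hq hu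
    (fun e _ he u hu _ hc => hfix e he u hu hc)
    (fun e _ he => ⟨r, hr, hrq, hu', fun v hv _ hc => hfix e he v hv hc,
      fun g _ hg _ v hv _ hc => hfix g hg v hv hc⟩) hgn hg (hCK ▸ hgH) hen
  exact heH (he.mem_of_pow_mem (((Nat.coprime_primes hr hq).2 hrq).pow_right k) (hCK ▸ hk))

/-- Claim B: small centralizers are abelian. -/
theorem NF.small_comm (T : NF G n₁ n₂) (h3 : P3 G) {x : G} (hx : cs(x) = n₁) {v : G}
    (hv : v ∈ 𝒞[x]) : 𝒞[x] ≤ 𝒞[v] := by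
  set K : Subgroup G := 𝒞[x] with hK
  by_contra hne
  let σ : ℕ → Prop := fun s => ∀ v ∈ K, PE s v → K ≤ 𝒞[v]
  obtain ⟨p, hp, v', hv'v, hpv', hv'⟩ := exists_PE_of_not_mem (H := centralizer (K : Set G))
    (x := v) fun e => hne fun g hg => mem_cent.2 (e g hg)
  have hv'K : v' ∈ K := zpowers_le.2 hv hv'v
  have hv'n : ¬ K ≤ 𝒞[v'] := fun e => hv' fun g hg => mem_cent.1 (e hg)
  have hσp : ¬ σ p := fun e => hv'n (e v' hv'K hpv')
  have hgen : ∀ s : ℕ, ∀ w : G, 𝒞[w] = K → s.Coprime (orderOf w) → σ s := by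
    intro s w hw hcop u hu hsu
    have hc : Commute w u := (mem_cent.1 (hw ▸ hu : u ∈ 𝒞[w])).symm
    have h1 := cent_mul_of_coprime hc (hsu.coprime hcop).symm
    rw [hw] at h1
    rw [hK, ← T.eq_of_small hx (h1 ▸ inf_le_left : 𝒞[w * u] ≤ 𝒞[x]), h1]
    exact inf_le_right
  have hbig : ∀ s : ℕ, ¬ σ s → ∀ w : G, K ≤ 𝒞[w] → w ∉ center G → s.Coprime (orderOf w) →
      cs(w) = n₂ := fun s hs w hw hwz hcop =>
    (T.cases hwz).resolve_right fun e => hs (hgen s w (T.eq_of_small e hw).symm hcop)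
  have hmem : ∀ w : G, K ≤ 𝒞[w] → w ∈ K := fun w hw => mem_cent_comm.1 (hw (self_mem_cent x))
  have hsame : ∀ s : ℕ, ¬ σ s → ∀ a b : G, K ≤ 𝒞[a] → K ≤ 𝒞[b] → a ∉ center G → b ∉ center G →
      (orderOf a).Coprime (orderOf b) → s.Coprime (orderOf a) → s.Coprime (orderOf b) →
      (𝒞[a] : Subgroup G) = 𝒞[b] := by
    intro s hs a b ha hb haz hbz hab hsa hsb
    have hc : Commute a b := mem_cent.1 (hb (hmem a ha))
    have h1 := cent_mul_of_coprime hc hab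
    have h2 := hbig s hs (a * b) (h1 ▸ le_inf ha hb) (mul_not_mem_center hc hab haz)
      ((Nat.Coprime.mul_right hsa hsb).coprime_dvd_right hc.orderOf_mul_dvd_mul_orderOf)
    rw [← T.eq_of_big h2 haz (h1 ▸ inf_le_left), T.eq_of_big h2 hbz (h1 ▸ inf_le_right)]
  have hxz := T.nc_of_small hx
  have hcp : ∀ {a b : ℕ} {w : G}, a.Prime → b.Prime → a ≠ b → PE b w → a.Coprime (orderOf w) :=
    fun ha hb hab hw => (hw.coprime ((Nat.coprime_primes hb ha).2 hab.symm)).symm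
  have hσ : ∀ q : ℕ, q.Prime → q ≠ p → σ q := by
    intro q hq hqp
    by_contra hσq
    have := Fact.mk hp
    have := Fact.mk hq
    obtain ⟨a, b, ha, hb, hpa, hbp, e⟩ := H3.exists_p_part (p := p) x
    obtain ⟨c, d, hc, hd, hqc, hdq, e'⟩ := H3.exists_p_part (p := q) b
    have hKa := cent_le_cent_of_mem_zpowers ha
    have hKb := cent_le_cent_of_mem_zpowers hb
    have hKc := cent_le_cent_of_mem_zpowers (zpowers_le.2 hb hc)
    have hKd := cent_le_cent_of_mem_zpowers (zpowers_le.2 hb hd)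
    have hab : Commute a b := mem_cent.1 (hKb (hmem a hKa))
    have hqa : q.Coprime (orderOf a) := hcp hq hp hqp hpa
    have h1 : K = 𝒞[a] ⊓ 𝒞[b] := by
      rw [hK, e]; exact cent_mul_of_coprime hab (PE.coprime hpa hbp.symm)
    have hnab : ¬ (𝒞[a] : Subgroup G) ≤ 𝒞[b] := fun h =>
      hσq (hgen q a (by rw [h1, inf_eq_left.2 h]) hqa)
    have hnba : ¬ (𝒞[b] : Subgroup G) ≤ 𝒞[a] := fun h =>
      hσp (hgen p b (by rw [h1, inf_eq_right.2 h]) hbp.symm)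
    have haz : a ∉ center G := fun h => hnba fun g _ => mem_cent.2 (mem_center_iff.1 h g)
    have hbz : b ∉ center G := fun h => hnab fun g _ => mem_cent.2 (mem_center_iff.1 h g)
    have hbb := hbig p hσp b hKb hbz hbp.symm
    have hdp : p.Coprime (orderOf d) :=
      hbp.symm.coprime_dvd_right (orderOf_dvd_of_mem_zpowers hd)
    have hdz : d ∈ center G := by
      by_contra hdz
      refine hnab ?_
      rw [hsame q hσq a d hKa hKd haz hdz (PE.coprime hpa hdp) hqa hdq.symm,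
        T.eq_of_big hbb hdz (cent_le_cent_of_mem_zpowers hd)]
    have hbc : (𝒞[b] : Subgroup G) = 𝒞[c] := by rw [e']; exact cent_mul_center hdz
    have hcz : c ∉ center G := fun h => hbz (e' ▸ mul_mem h hdz)
    obtain ⟨r, hr, hrd, hrp, hrq⟩ := h3 p q
    have hac : Commute a c := mem_cent.1 (hKc (hmem a hKa))
    have hσr : σ r := hgen r (a * c)
      (by rw [cent_mul_of_coprime hac (PE.coprime_orderOf hp hq hqp.symm hpa hqc), h1, hbc])
      ((Nat.Coprime.mul_right (hcp hr hp hrp hpa) (hcp hr hq hrq hqc)).coprime_dvd_right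
        hac.orderOf_mul_dvd_mul_orderOf)
    obtain ⟨t, htK, ht, htz⟩ := T.exPE h3 hr hrd hxz
    have h2 := hsame p hσp t c (hσr t htK ht) hKc htz hcz (PE.coprime_orderOf hr hq hrq ht hqc)
      (hcp hp hr hrp.symm ht) (hcp hp hq hqp.symm hqc)
    have h4 := hsame q hσq t a (hσr t htK ht) hKa htz haz (PE.coprime_orderOf hr hp hrp ht hpa)
      (hcp hq hr hrq.symm ht) hqa
    exact hnab (by rw [← h4, h2, hbc])
  obtain ⟨q, hq, hqd, hqp, -⟩ := h3 p p
  obtain ⟨r, hr, hrd, hrp, hrq⟩ := h3 p q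
  obtain ⟨t₁, ht₁K, ht₁, ht₁z⟩ := T.exPE h3 hq hqd hxz
  obtain ⟨t₂, ht₂K, ht₂, ht₂z⟩ := T.exPE h3 hr hrd hxz
  have hK₁ := hσ q hq hqp t₁ ht₁K ht₁
  have hK₂ := hσ r hr hrp t₂ ht₂K ht₂
  have h12 := hsame p hσp t₁ t₂ hK₁ hK₂ ht₁z ht₂z (PE.coprime_orderOf hq hr hrq.symm ht₁ ht₂)
    (hcp hp hq hqp.symm ht₁) (hcp hp hr hrp.symm ht₂)
  have hb₁ := hbig p hσp t₁ hK₁ ht₁z (hcp hp hq hqp.symm ht₁)
  have hchoose : ∀ s : ℕ, ∃ (s' : ℕ) (t : G), s'.Prime ∧ s' ≠ s ∧ s' ≠ p ∧ PE s' t ∧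
      t ∉ center G ∧ (𝒞[t] : Subgroup G) = 𝒞[t₁] := by
    intro s
    by_cases hsq : q = s
    · exact ⟨r, t₂, hr, hsq ▸ hrq, hrp, ht₂, ht₂z, h12.symm⟩
    · exact ⟨q, t₁, hq, hsq, hqp, ht₁, ht₁z, rfl⟩
  refine T.beta h3 hb₁ ⟨v', hK₁ hv'K, fun e => hv'n (hK₁.trans e)⟩ (p := p)
    fun s hs hsp w hwH hw => by_contra fun hwn => ?_
  set H : Subgroup G := 𝒞[t₁] with hH
  set Y := H ⊓ centralizer (H : Set G) with hY
  obtain ⟨s', t, hs', hs's, hs'p, ht, htz, htH⟩ := hchoose s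
  have hc : Commute t w := (mem_cent.1 (htH ▸ hwH : w ∈ 𝒞[t])).symm
  have hcop := PE.coprime_orderOf hs' hs hs's ht hw
  have h1 := T.small_of_not_le htz hc hcop (htH ▸ hwn)
  have h2 := cent_mul_of_coprime hc hcop
  rw [htH] at h2
  have hYK : Y ≤ K := fun g hg => mem_cent.2 (hg.2 x (hK₁ (self_mem_cent x))).symm
  have hYK' : Y ≤ 𝒞[t * w] := h2 ▸ le_inf inf_le_left fun g hg => mem_cent.2 (hg.2 w hwH).symm
  have h4 : s ∣ Y.relIndex 𝒞[t * w] := dvd_relIndex_of_PE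
    ((h2 ▸ inf_le_left : 𝒞[t * w] ≤ H).trans
      (le_normalizer.trans (normalizer_le_normalizer_inf_cent H))) hs
    (h2 ▸ ⟨hwH, self_mem_cent w⟩ : w ∈ 𝒞[t * w]) hw
    fun e => hwn fun g hg => mem_cent.2 (e.2 g hg)
  rw [relIndex_eq_of_index_eq hYK' hYK (h1.trans hx.symm)] at h4
  obtain ⟨u, huK, hu, huY⟩ := exists_PE_of_dvd_relIndex hs h4
  refine huY ⟨hK₁ huK, fun g hg => ?_⟩
  by_cases huz : u ∈ center G
  · exact mem_center_iff.1 huz g
  · rw [← htH, hsame p hσp t u (htH ▸ hK₁) (hσ s hs hsp u huK hu) htz huz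
      (PE.coprime_orderOf hs' hs hs's ht hu) (hcp hp hs' hs'p.symm ht) (hcp hp hs (Ne.symm hsp) hu)]
      at hg
    exact mem_cent.1 hg

end Cfsg.Agent.H8
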