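import Cfsg.Agent.H8.ThreeSizes

set_option autoImplicit false

/-! Groups with three class sizes, nested centralizers: at most two primes divide `|G : Z(G)|`. -/

namespace Cfsg.Agent.H8

open Subgroup H83

local notation "𝒞[" x "]" => Subgroup.centralizer {x}

variable {G : Type*} [Group G] [Finite G] {n₁ n₂ : ℕ}

theorem NF.two_primes (T : NF G n₁ n₂) (h3 : P3 G) {q r : ℕ} (hq : q.Prime) (hr : r.Prime)
    (hqr : q ≠ r) {y₁ y₂ : G} (h₁ : PE q y₁) (h₂ : PE r y₂) (hb : cs(y₁) = n₂)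
    (he : (𝒞[y₂] : Subgroup G) = 𝒞[y₁]) (hna : ∃ x ∈ 𝒞[y₁], ¬ 𝒞[y₁] ≤ 𝒞[x]) : False := by
  set H : Subgroup G := 𝒞[y₁] with hH
  have hz₁ := T.nc_of_big hb
  have hz₂ := T.nc_of_big (he ▸ hb : cs(y₂) = n₂)
  have key : ∀ w ∈ H, ¬ H ≤ 𝒞[w] → (𝒞[w] : Subgroup G).relIndex H = n₁ / n₂ := by
    intro w hwH hw
    obtain ⟨s, hs, v, hvw, hv, hvn⟩ := exists_PE_of_not_mem (H := centralizer (H : Set G)) (x := w)
      fun e => hw fun g hg => mem_cent.2 (e g hg)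
    have hvH : v ∈ H := zpowers_le.2 hwH hvw
    obtain ⟨s', t, hs', hs's, ht, htz, htH⟩ : ∃ (s' : ℕ) (t : G), s'.Prime ∧ s' ≠ s ∧ PE s' t ∧
        t ∉ center G ∧ (𝒞[t] : Subgroup G) = H := by
      by_cases hsq : q = s
      · exact ⟨r, y₂, hr, hsq ▸ hqr.symm, h₂, hz₂, he⟩
      · exact ⟨q, y₁, hq, hsq, h₁, hz₁, rfl⟩
    have hc : Commute t v := (mem_cent.1 (htH ▸ hvH : v ∈ 𝒞[t])).symm
    have hcop := PE.coprime_orderOf hs' hs hs's ht hv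
    have h1 := T.small_of_not_le htz hc hcop
      (htH ▸ fun e => hvn fun g hg => mem_cent.1 (e hg))
    have h2 := cent_mul_of_coprime hc hcop
    rw [htH] at h2
    have hle := cent_le_cent_of_mem_zpowers hvw
    have h4 := T.small_comm h3 h1 (h2 ▸ ⟨hwH, hle (self_mem_cent w)⟩ : w ∈ 𝒞[t * v])
    have h5 : H ⊓ 𝒞[w] = 𝒞[t * v] :=
      le_antisymm (h2 ▸ inf_le_inf_left H hle) (le_inf (h2 ▸ inf_le_left) h4)
    rw [← inf_relIndex_left, h5]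
    exact T.relIndex_eq h1 hb (h2 ▸ inf_le_left)
  have hcen : ∀ w : H, w ∈ center H ↔ H ≤ 𝒞[(w : G)] := fun w =>
    ⟨fun e g hg => mem_cent.2 (congrArg Subtype.val (mem_center_iff.1 e ⟨g, hg⟩)),
      fun e => mem_center_iff.2 fun g => Subtype.ext (mem_cent.1 (e g.2))⟩
  obtain ⟨x, hxH, hx⟩ := hna
  obtain ⟨-, p, hp, h⟩ := exists_prime_of_two_sizes (G := H) (n₁ / n₂) (fun w => by
    by_cases hw : w ∈ center H
    · exact Or.inl (cs_eq_one_iff.2 hw)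
    · rw [cs_subgroup]
      exact Or.inr (key w w.2 fun e => hw ((hcen w).2 e))) ⟨⟨x, hxH⟩, fun e => hx ((hcen _).1 e)⟩
  exact T.beta h3 hb ⟨x, hxH, hx⟩ (p := p) fun s hs hsp v hv hsv =>
    (hcen ⟨v, hv⟩).1 (h s hs hsp ⟨v, hv⟩ (PE.coe.1 hsv))

/-- A `p`-element whose centralizer is big and non-abelian. -/
structure NB (n₂ p : ℕ) (y : G) : Prop where
  hp : p.Prime
  hy : PE p y
  big : cs(y) = n₂
  na : ∃ x ∈ 𝒞[y], ¬ 𝒞[y] ≤ 𝒞[x]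

theorem NF.b1 (T : NF G n₁ n₂) (h3 : P3 G) {p : ℕ} {y : G} (B : NB n₂ p y) {s : ℕ} (hs : s.Prime)
    (hsp : s ≠ p) {v : G} (hvH : v ∈ 𝒞[y]) (hv : PE s v) (hvz : v ∉ center G) :
    ∃ w : G, cs(w) = n₁ ∧ (𝒞[w] : Subgroup G) = 𝒞[y] ⊓ 𝒞[v] := by
  have hc : Commute y v := (mem_cent.1 hvH).symm
  have hcop := PE.coprime_orderOf B.hp hs hsp.symm B.hy hv
  refine ⟨y * v, T.small_of_not_le (T.nc_of_big B.big) hc hcop fun e => ?_,
    cent_mul_of_coprime hc hcop⟩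
  exact T.two_primes h3 B.hp hs hsp.symm B.hy hv B.big (T.eq_of_big B.big hvz e).symm B.na

theorem NF.b1' (T : NF G n₁ n₂) (h3 : P3 G) {p : ℕ} {y : G} (B : NB n₂ p y) {w : G}
    (hw : cs(w) = n₁) (hwy : (𝒞[w] : Subgroup G) ≤ 𝒞[y]) {s : ℕ} (hs : s.Prime)
    (hsp : s ≠ p) {v : G} (hvK : v ∈ 𝒞[w]) (hv : PE s v) (hvz : v ∉ center G) :
    (𝒞[y] : Subgroup G) ⊓ 𝒞[v] = 𝒞[w] := by
  obtain ⟨w', h1, h2⟩ := T.b1 h3 B hs hsp (hwy hvK) hv hvz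
  rw [← h2]
  exact (T.eq_of_small h1 (h2 ▸ le_inf hwy (T.small_comm h3 hw hvK))).symm

theorem NF.cent_small (T : NF G n₁ n₂) (h3 : P3 G) {w : G} (hw : cs(w) = n₁) :
    centralizer ((𝒞[w] : Subgroup G) : Set G) = 𝒞[w] :=
  le_antisymm (centralizer_le (Set.singleton_subset_iff.2 (self_mem_cent w)))
    fun g hg k hk => (mem_cent.1 (T.small_comm h3 hw hk hg)).symm

theorem NF.dvd_of_dvd (T : NF G n₁ n₂) {s : ℕ} (h : s ∣ n₁ / n₂) : s ∣ (center G).index :=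
  (h.trans (Dvd.intro _ T.mul)).trans T.dvd_index

theorem NF.exists_norm (T : NF G n₁ n₂) (h3 : P3 G) {p : ℕ} {y : G} (B : NB n₂ p y) {w : G}
    (hw : cs(w) = n₁) (hwy : (𝒞[w] : Subgroup G) ≤ 𝒞[y]) {s : ℕ} (hs : s.Prime)
    (hsp : s ≠ p) (hd : s ∣ n₁ / n₂) : ∃ g ∈ 𝒞[y], g ∉ 𝒞[w] ∧ PE s g ∧
      g ∈ normalizer ((𝒞[w] : Subgroup G) : Set G) :=
  exists_PE_mem_normalizer hwy hs (by rwa [T.relIndex_eq hw B.big hwy])
    (fun a ha b hb _ _ => mem_cent.1 (T.small_comm h3 hw hb ha))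
    (T.exPE h3 hs (T.dvd_of_dvd hd) (T.nc_of_small hw))
    fun u hu h1 h2 => T.b1' h3 B hw hwy hs hsp hu h1 h2

theorem NF.b2 (T : NF G n₁ n₂) (h3 : P3 G) {p : ℕ} {y : G} (B : NB n₂ p y) {q r : ℕ}
    (hq : q.Prime) (hr : r.Prime) (hqr : q ≠ r) (hqp : q ≠ p) (hrp : r ≠ p)
    (hqd : q ∣ n₁ / n₂) (hrd : r ∣ n₁ / n₂) : False := by
  obtain ⟨v, hvH, hv, hvz⟩ := T.exPE h3 hq (T.dvd_of_dvd hqd) (T.nc_of_big B.big)
  obtain ⟨w, hw, e⟩ := T.b1 h3 B hq hqp hvH hv hvz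
  have hwy : (𝒞[w] : Subgroup G) ≤ 𝒞[y] := e ▸ inf_le_left
  obtain ⟨g, hgH, hgK, hg, hgn⟩ := T.exists_norm h3 B hw hwy hq hqp hqd
  obtain ⟨a, haH, haK, ha, han⟩ := T.exists_norm h3 B hw hwy hr hrp hrd
  have hC := T.cent_small h3 hw
  have hfix : ∀ s : ℕ, s.Prime → s ≠ p → ∀ e ∈ 𝒞[y] ⊓ normalizer ((𝒞[w] : Subgroup G) : Set G),
      e ∉ centralizer ((𝒞[w] : Subgroup G) : Set G) → ∀ u ∈ 𝒞[w], PE s u → Commute e u →
      u ∈ center G := by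
    intro s hs hsp e he heK u hu hsu hc
    by_contra huz
    refine heK (hC.ge ?_)
    rw [← T.b1' h3 B hw hwy hs hsp hu hsu huz]
    exact ⟨he.1, mem_cent.2 hc⟩
  obtain ⟨k, hk⟩ := pow_mem_cent_of_few_fixed
    (fun a ha b hb => mem_cent.1 (T.small_comm h3 hw hb ha))
    (inf_le_right : 𝒞[y] ⊓ normalizer ((𝒞[w] : Subgroup G) : Set G) ≤ _) hq
    (T.exPE h3 hq (T.dvd_of_dvd hqd) (T.nc_of_small hw)) (hfix q hq hqp)
    (fun e he heK => ⟨r, hr, hqr.symm, T.exPE h3 hr (T.dvd_of_dvd hrd) (T.nc_of_small hw),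
      hfix r hr hrp e he heK, fun g hg hgK _ => hfix r hr hrp g hg hgK⟩)
    ⟨hgH, hgn⟩ hg (fun e => hgK (hC.le e)) ⟨haH, han⟩
  exact haK (ha.mem_of_pow_mem (((Nat.coprime_primes hr hq).2 hqr.symm).pow_right k) (hC ▸ hk))

theorem exists_second_center {q : ℕ} (hq : q.Prime) {Q : Subgroup G} (hQ : IsPGroup q Q)
    (h : ¬ Q ≤ center G) : ∃ u ∈ Q, u ∉ center G ∧ ∀ g ∈ Q, (𝒞[g * u * g⁻¹] : Subgroup G) = 𝒞[u] := by
  have := Fact.mk hq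
  set Qb := Q.map (QuotientGroup.mk' (center G)) with hQb
  have h1 : Nontrivial Qb := (nontrivial_iff_ne_bot _).2 fun e => h (by
    rwa [hQb, Subgroup.map_eq_bot_iff, QuotientGroup.ker_mk'] at e)
  have := (hQ.map (QuotientGroup.mk' (center G))).center_nontrivial
  obtain ⟨⟨⟨_, u, hu, rfl⟩, hc⟩, hne⟩ := exists_ne (1 : center Qb)
  refine ⟨u, hu, fun e => hne (Subtype.ext (Subtype.ext ((QuotientGroup.eq_one_iff u).2 e))),
    fun g hg => ?_⟩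
  have h2 := congrArg Subtype.val (mem_center_iff.1 hc ⟨_, mem_map_of_mem _ hg⟩)
  have h4 : u⁻¹ * (g * u * g⁻¹) ∈ center G := by
    rw [← QuotientGroup.eq]
    have h5 : (QuotientGroup.mk g : G ⧸ center G) * QuotientGroup.mk u =
      QuotientGroup.mk u * QuotientGroup.mk g := h2
    rw [QuotientGroup.mk_mul, QuotientGroup.mk_mul, h5, QuotientGroup.mk_inv, mul_inv_cancel_right]
  rw [← cent_mul_center (x := u) h4, mul_inv_cancel_left]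

theorem NF.b3 (T : NF G n₁ n₂) (h3 : P3 G) {p : ℕ} {y : G} (B : NB n₂ p y) : p ∣ n₁ / n₂ := by
  by_contra hpn
  obtain ⟨q, hq, hqd⟩ := Nat.exists_prime_and_dvd T.one_lt.ne'
  have hqp : q ≠ p := fun e => hpn (e ▸ hqd)
  have hall : ∀ s : ℕ, s.Prime → s ∣ n₁ / n₂ → s = q := fun s hs hsd => by_contra fun hne =>
    T.b2 h3 B hs hq hne (fun e => hpn (e ▸ hsd)) hqp hsd hqd
  set H : Subgroup G := 𝒞[y] with hH
  have := Fact.mk hq
  obtain ⟨P⟩ : Nonempty (Sylow q H) := inferInstance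
  set Q := (P : Subgroup H).map H.subtype with hQ
  have hQH : Q ≤ H := map_subtype_le _
  have hQp : IsPGroup q Q := P.2.map _
  have hQi : ¬ q ∣ Q.relIndex H := by
    rw [relIndex, hQ, subgroupOf, comap_map_eq_self_of_injective H.subtype_injective]
    exact P.not_dvd_index
  have hQz : ¬ Q ≤ center G := fun e => by
    obtain ⟨v, hvH, hv, hvz⟩ := T.exPE h3 hq (T.dvd_of_dvd hqd) (T.nc_of_big B.big)
    exact hQi ((dvd_relIndex_center hq hvH hv hvz).trans (relIndex_dvd_of_le_left H e))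
  obtain ⟨u, huQ, huz, hu⟩ := exists_second_center hq hQp hQz
  obtain ⟨w, hw, e⟩ := T.b1 h3 B hq hqp (hQH huQ) (PE.of_mem hQp huQ) huz
  have hwy : (𝒞[w] : Subgroup G) ≤ H := e ▸ inf_le_left
  have hQn : Q ≤ normalizer ((𝒞[w] : Subgroup G) : Set G) := fun g hg =>
    mem_normalizer_of_cent (le_normalizer (hQH hg)) e.symm (by rw [hu g hg, e])
  have hrel := T.relIndex_eq hw B.big hwy
  have hHn : H ≤ normalizer ((𝒞[w] : Subgroup G) : Set G) := by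
    rw [← relIndex_eq_one]
    by_contra hne
    obtain ⟨s, hs, hsd⟩ := Nat.exists_prime_and_dvd hne
    have := hall s hs (hrel ▸ hsd.trans (relIndex_dvd_of_le_left H le_normalizer))
    exact hQi (this ▸ hsd.trans (relIndex_dvd_of_le_left H hQn))
  obtain ⟨g, hgQ, hgw⟩ : ∃ g ∈ Q, g ∉ 𝒞[w] := SetLike.not_le_iff_exists.1 fun e =>
    hQi (hqd.trans (hrel ▸ relIndex_dvd_of_le_left H e))
  obtain ⟨w', hw', e'⟩ := T.b1 h3 B hq hqp (hQH hgQ) (PE.of_mem hQp hgQ)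
    fun h => hgw (center_le_centralizer _ h)
  obtain ⟨t, ht, htd, htq, htp⟩ := h3 q p
  obtain ⟨v, hv, htv, hvz⟩ := T.exPE h3 ht htd (T.nc_of_small hw')
  rw [e'] at hv
  have hvw : v ∈ 𝒞[w] := by
    by_contra hvw
    exact htq (hall t ht (hrel ▸ dvd_relIndex_of_PE hHn ht hv.1 htv hvw))
  exact hgw (T.b1' h3 B hw hwy ht htp hvw htv hvz ▸ ⟨hQH hgQ, mem_cent_comm.1 hv.2⟩)

theorem NF.not_P3 (T : NF G n₁ n₂) : ¬ P3 G := by
  intro h3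
  obtain ⟨p, y, hp, hy, hb, hna⟩ := T.exists_nb
  have B : NB n₂ p y := ⟨hp, hy, hb, hna⟩
  obtain ⟨r, r', hr, hr', hrd, hr'd, hrp, hr'p, hrr', hrn⟩ : ∃ r r' : ℕ, r.Prime ∧ r'.Prime ∧
      r ∣ (center G).index ∧ r' ∣ (center G).index ∧ r ≠ p ∧ r' ≠ p ∧ r' ≠ r ∧ ¬ r ∣ n₁ / n₂ := by
    obtain ⟨a, ha, had, hap, -⟩ := h3 p p
    obtain ⟨b, hb, hbd, hbp, hba⟩ := h3 p a
    by_cases h : a ∣ n₁ / n₂
    · exact ⟨b, a, hb, ha, hbd, had, hbp, hap, hba.symm,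
        fun h' => T.b2 h3 B ha hb hba.symm hap hbp h h'⟩
    · exact ⟨a, b, ha, hb, had, hbd, hap, hbp, hba, h⟩
  obtain ⟨v, hvH, hv, hvz⟩ := T.exPE h3 hr hrd (T.nc_of_big hb)
  obtain ⟨w, hw, e⟩ := T.b1 h3 B hr hrp hvH hv hvz
  have hwy : (𝒞[w] : Subgroup G) ≤ 𝒞[y] := e ▸ inf_le_left
  have hC := T.cent_small h3 hw
  have hwz := T.nc_of_small hw
  set K : Subgroup G := 𝒞[w] with hK
  have hbigof : ∀ u ∈ K, u ∉ center G → (𝒞[u] : Subgroup G) ≠ K →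
      cs(u) = n₂ ∧ ∃ x ∈ 𝒞[u], ¬ 𝒞[u] ≤ 𝒞[x] := by
    intro u hu huz hne
    have hle := T.small_comm h3 hw hu
    exact ⟨(T.cases huz).resolve_right fun h => hne (T.eq_of_small h hle).symm,
      w, hle (self_mem_cent w), fun h => hne (le_antisymm h hle)⟩
  have hsm : ∀ s : ℕ, s.Prime → ¬ s ∣ n₁ / n₂ → ∀ u ∈ K, PE s u → u ∉ center G →
      (𝒞[u] : Subgroup G) = K := by
    intro s hs hsn u hu hsu huz
    by_contra hne
    obtain ⟨h1, h2⟩ := hbigof u hu huz hne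
    exact hsn (T.b3 h3 ⟨hs, hsu, h1, h2⟩)
  have hcomm : ∀ a ∈ K, ∀ b ∈ K, Commute a b := fun a ha b hb =>
    mem_cent.1 (T.small_comm h3 hw hb ha)
  have hex : ∀ s : ℕ, s.Prime → s ∣ (center G).index → ¬ s ∣ n₁ / n₂ →
      ∃ g, g ∉ K ∧ PE s g ∧ g ∈ normalizer (K : Set G) := by
    intro s hs hsd hsn
    obtain ⟨g, -, h⟩ := exists_PE_mem_normalizer (le_top : K ≤ ⊤) hs
      (by rw [relIndex_top_right, hw]; exact T.dvd_n₁ hs hsd)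
      (fun a ha b hb _ _ => hcomm a ha b hb) (T.exPE h3 hs hsd hwz)
      (fun u hu h1 h2 => by rw [top_inf_eq, hsm s hs hsn u hu h1 h2])
    exact ⟨g, h⟩
  obtain ⟨g, hgK, hg, hgn⟩ := hex r hr hrd hrn
  obtain ⟨a, haK, ha, han⟩ : ∃ g, g ∉ K ∧ PE r' g ∧ g ∈ normalizer (K : Set G) := by
    by_cases h : r' ∣ n₁ / n₂
    · obtain ⟨g, -, h⟩ := T.exists_norm h3 B hw hwy hr' hr'p h
      exact ⟨g, h⟩
    · exact hex r' hr' hr'd h
  have E3 : ∀ g ∈ normalizer (K : Set G), g ∉ centralizer (K : Set G) →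
      (∃ k : ℕ, g ^ r ^ k ∈ centralizer (K : Set G)) → ∀ v ∈ K, Commute g v → v ∈ center G := by
    rintro g hgn hgK ⟨k, hk⟩ v hv hc
    rw [hC] at hgK hk
    by_contra hvz
    have hgv : g ∈ 𝒞[v] := mem_cent.2 hc
    have hle := T.small_comm h3 hw hv
    obtain ⟨h1, -⟩ := hbigof v hv hvz fun h => hgK (h ▸ hgv)
    obtain ⟨s, hs, g', hg'g, hg', hg'K⟩ := exists_PE_of_not_mem hgK
    have hsr : s = r := by
      by_contra hne
      refine hg'K (hg'.mem_of_pow_mem (((Nat.coprime_primes hs hr).2 hne).pow_right k) ?_)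
      obtain ⟨i, rfl⟩ := hg'g
      show (g ^ i) ^ r ^ k ∈ K
      rw [← zpow_natCast, ← zpow_mul, mul_comm, zpow_mul, zpow_natCast]
      exact K.zpow_mem hk i
    have h2 := dvd_relIndex_of_PE (X := 𝒞[v] ⊓ normalizer (K : Set G)) inf_le_right hs
      (zpowers_le.2 (show g ∈ 𝒞[v] ⊓ normalizer (K : Set G) from ⟨hgv, hgn⟩) hg'g) hg' hg'K
    refine hrn (hsr ▸ h2.trans ?_)
    rw [← T.relIndex_eq hw h1 hle]
    exact Dvd.intro _ (relIndex_mul_relIndex _ _ _ (le_inf hle le_normalizer) inf_le_left)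
  obtain ⟨t₁, ht₁, ht₁d, ht₁r, -⟩ := h3 r r
  obtain ⟨t₂, ht₂, ht₂d, ht₂r, ht₂₁⟩ := h3 r t₁
  obtain ⟨k, hk⟩ := pow_mem_cent_of_few_fixed hcomm le_rfl hr (T.exPE h3 hr hrd hwz)
    (fun e _ he u hu hru hc => by
      by_contra huz
      exact he (hC.ge ((hsm r hr hrn u hu hru huz).le (mem_cent.2 hc))))
    (fun h _ hh => by
      by_cases h1 : ∀ v ∈ K, PE t₁ v → Commute h v → v ∈ center G
      · exact ⟨t₁, ht₁, ht₁r, T.exPE h3 ht₁ ht₁d hwz, h1,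
          fun g hg hgK hk v hv _ hc => E3 g hg hgK hk v hv hc⟩
      refine ⟨t₂, ht₂, ht₂r, T.exPE h3 ht₂ ht₂d hwz, fun u₂ hu₂ hp₂ hc₂ => ?_,
          fun g hg hgK hk v hv _ hc => E3 g hg hgK hk v hv hc⟩
      push Not at h1
      obtain ⟨u₁, hu₁, hp₁, hc₁, hz₁⟩ := h1
      by_contra hz₂
      have hcop := PE.coprime_orderOf ht₁ ht₂ ht₂₁.symm hp₁ hp₂
      have hc := hcomm u₁ hu₁ u₂ hu₂
      have h4 := cent_mul_of_coprime hc hcop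
      obtain ⟨h5, h6⟩ := hbigof (u₁ * u₂) (K.mul_mem hu₁ hu₂) (mul_not_mem_center hc hcop hz₁)
        fun e => hh (hC.ge (e.le (mem_cent.2 (hc₁.mul_right hc₂))))
      have h7 := T.eq_of_big h5 hz₁ (h4 ▸ inf_le_left)
      have h8 := T.eq_of_big h5 hz₂ (h4 ▸ inf_le_right)
      exact T.two_primes h3 ht₁ ht₂ ht₂₁.symm hp₁ hp₂ (h7 ▸ h5) (h8.symm.trans h7) (h7 ▸ h6))
    hgn hg (fun e => hgK (hC.le e)) han
  exact haK (ha.mem_of_pow_mem (((Nat.coprime_primes hr' hr).2 hrr').pow_right k) (hC ▸ hk))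

end Cfsg.Agent.H8
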